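import Cfsg.Agent.H63.AltSec.ThreeLift

/-!
# Lifts of double transpositions: the commutation sign
-/

set_option linter.unusedSectionVars false

namespace Cfsg.Agent.H63.AltSec

open Module Equiv

section DSwap

variable {α : Type*} [DecidableEq α]

/-- The double transposition `(a b)(c d)`. -/
def dswap (a b c d : α) : Perm α := Equiv.swap a b * Equiv.swap c d

variable {a b c d : α}

theorem dswap_fst (hac : a ≠ c) (had : a ≠ d) : dswap a b c d a = b := by
  simp [dswap, Equiv.swap_apply_of_ne_of_ne hac had]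

theorem dswap_snd (hbc : b ≠ c) (hbd : b ≠ d) : dswap a b c d b = a := by
  simp [dswap, Equiv.swap_apply_of_ne_of_ne hbc hbd]

theorem dswap_thd (had : a ≠ d) (hbd : b ≠ d) : dswap a b c d c = d := by
  simp [dswap, Equiv.swap_apply_of_ne_of_ne had.symm hbd.symm]

theorem dswap_fth (hac : a ≠ c) (hbc : b ≠ c) : dswap a b c d d = c := by
  simp [dswap, Equiv.swap_apply_of_ne_of_ne hac.symm hbc.symm]

theorem dswap_of_ne {w : α} (h1 : w ≠ a) (h2 : w ≠ b) (h3 : w ≠ c) (h4 : w ≠ d) : dswap a b c d w = w := by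
  simp [dswap, Equiv.swap_apply_of_ne_of_ne, h1, h2, h3, h4]

theorem conj_dswap (σ : Perm α) (a b c d : α) :
    σ * dswap a b c d * σ⁻¹ = dswap (σ a) (σ b) (σ c) (σ d) := by
  simp only [dswap, Equiv.swap_apply_apply]
  group

theorem dswap_swap (a b c d : α) : dswap a b d c = dswap a b c d := by
  rw [dswap, dswap, Equiv.swap_comm d c]

theorem dswap_swap' (a b c d : α) : dswap b a c d = dswap a b c d := by
  rw [dswap, dswap, Equiv.swap_comm b a]

theorem dswap_exchange (hac : a ≠ c) (had : a ≠ d) (hbc : b ≠ c) (hbd : b ≠ d) :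
    dswap c d a b = dswap a b c d := by
  ext w
  by_cases h1 : w = a
  · subst h1; simp [dswap, Equiv.swap_apply_of_ne_of_ne, hac, had, hbc, hbd]
  by_cases h2 : w = b
  · subst h2; simp [dswap, Equiv.swap_apply_of_ne_of_ne, hac, had, hbc, hbd]
  by_cases h3 : w = c
  · subst h3; simp [dswap, Equiv.swap_apply_of_ne_of_ne, hac.symm, had.symm, hbc.symm, hbd.symm]
  by_cases h4 : w = d
  · subst h4; simp [dswap, Equiv.swap_apply_of_ne_of_ne, hac.symm, had.symm, hbc.symm, hbd.symm]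
  simp [dswap, Equiv.swap_apply_of_ne_of_ne, h1, h2, h3, h4]

theorem dswap_mul_self (hac : a ≠ c) (had : a ≠ d) (hbc : b ≠ c) (hbd : b ≠ d) :
    dswap a b c d * dswap a b c d = 1 := by
  nth_rewrite 2 [← dswap_exchange hac had hbc hbd]
  simp only [dswap, mul_assoc, Equiv.swap_mul_self_mul, Equiv.swap_mul_self]

theorem dswap_mul_dswap (hab : a ≠ b) (hac : a ≠ c) (had : a ≠ d) (hbc : b ≠ c) (hbd : b ≠ d) (hcd : c ≠ d) :
    dswap a b c d * dswap a c b d = dswap a d b c := by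
  ext w
  simp only [Perm.mul_apply]
  by_cases h1 : w = a
  · subst h1; rw [dswap_fst hab had, dswap_thd had hbd, dswap_fst hab hac]
  by_cases h2 : w = b
  · subst h2; rw [dswap_thd had hcd, dswap_fth hac hbc, dswap_thd hac hcd.symm]
  by_cases h3 : w = c
  · subst h3; rw [dswap_snd hbc.symm hcd, dswap_fst hac had, dswap_fth hab hbd.symm]
  by_cases h4 : w = d
  · subst h4; rw [dswap_fth hab hbc.symm, dswap_snd hbc hbd, dswap_snd hbd.symm hcd.symm]
  rw [dswap_of_ne h1 h3 h2 h4, dswap_of_ne h1 h2 h3 h4, dswap_of_ne h1 h4 h2 h3]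

theorem dswap_comm (hab : a ≠ b) (hac : a ≠ c) (had : a ≠ d) (hbc : b ≠ c) (hbd : b ≠ d) (hcd : c ≠ d) :
    Commute (dswap a b c d) (dswap a c b d) := by
  show _ * _ = _ * _
  rw [dswap_mul_dswap hab hac had hbc hbd hcd, dswap_mul_dswap hac hab had hbc.symm hcd hbd]
  exact (dswap_swap a d b c).symm

variable [Fintype α]

theorem sign_dswap (hab : a ≠ b) (hcd : c ≠ d) : Perm.sign (dswap a b c d) = 1 := by
  rw [dswap, map_mul, Perm.sign_swap hab, Perm.sign_swap hcd]; rfl

end DSwap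

namespace AltProj

variable {k : Type*} [Field k] {V : Type*} [AddCommGroup V] [Module k V] {r : ℕ} (P : AltProj k V r)

/-- The commutation sign of commuting double transpositions in a common four-set. -/
def SignIs (z : kˣ) : Prop :=
  ∀ (a b c d : Fin r), a ≠ b → a ≠ c → a ≠ d → b ≠ c → b ≠ d → c ≠ d → ∀ x y : ↥P.G,
    P.πP x = dswap a b c d → P.πP y = dswap a c b d → x * y = P.sc z * (y * x)

include P in
theorem exists_signIs : ∃ z : kˣ, (z = 1 ∨ z = -1) ∧ P.SignIs z := by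
  have hr := P.nine_le
  let o : Fin 4 → Fin r := fun i => ⟨i.val, by omega⟩
  have ho : ∀ i j, i ≠ j → o i ≠ o j := fun i j h e =>
    h (Fin.ext (by simpa [o] using congrArg Fin.val e))
  obtain ⟨x₀, hx₀⟩ := P.exists_lift (sign_dswap (ho 0 1 (by decide)) (ho 2 3 (by decide)))
  obtain ⟨y₀, hy₀⟩ := P.exists_lift (sign_dswap (ho 0 2 (by decide)) (ho 1 3 (by decide)))
  obtain ⟨z, hz⟩ := P.exists_comm_scalar (g := x₀) (h := y₀) (by
    rw [hx₀, hy₀]
    exact dswap_comm (ho 0 1 (by decide)) (ho 0 2 (by decide)) (ho 0 3 (by decide)) (ho 1 2 (by decide))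
      (ho 1 3 (by decide)) (ho 2 3 (by decide)))
  refine ⟨z, ?_, ?_⟩
  · obtain ⟨c, hc⟩ := (P.πP_eq_one_iff (y₀ * y₀)).1 (by
      rw [map_mul, hy₀, dswap_mul_self (ho 0 1 (by decide)) (ho 0 3 (by decide)) (ho 2 1 (by decide))
        (ho 2 3 (by decide))])
    have h1 : x₀ * (y₀ * y₀) = P.sc (z * z) * ((y₀ * y₀) * x₀) := by
      calc x₀ * (y₀ * y₀) = (x₀ * y₀) * y₀ := by group
        _ = P.sc z * (y₀ * (x₀ * y₀)) := by
          conv_lhs => rw [hz]
          group
        _ = P.sc z * (y₀ * (P.sc z * (y₀ * x₀))) := by rw [hz]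
        _ = _ := by rw [← mul_assoc y₀, ← P.sc_comm z y₀, map_mul]; group
    rw [hc, ← P.sc_comm c x₀] at h1
    nth_rewrite 1 [← one_mul (P.sc c * x₀)] at h1
    have h2 : z * z = 1 := P.sc_eq_one (mul_right_cancel h1).symm
    rcases mul_self_eq_one_iff.1 (show (z : k) * z = 1 by rw [← Units.val_mul, h2]; rfl) with h | h
    · exact Or.inl (Units.ext h)
    · exact Or.inr (Units.ext h)
  · intro a b c d hab hac had hbc hbd hcd x y hx hy
    obtain ⟨γ, hγ⟩ := exists_even_map (α := Fin r) (m := 4) (by simp; omega) o ![a, b, c, d]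
      (fun i j h => by_contra fun hne => ho i j hne h)
      (by intro i j; fin_cases i <;> fin_cases j <;> simp <;> grind)
    obtain ⟨g, hg⟩ := P.exists_lift (Perm.mem_alternatingGroup.1 γ.2)
    obtain ⟨l, rfl⟩ := P.exists_sc_mul (g := x) (h := g * x₀ * g⁻¹) (by
      rw [hx, map_mul, map_mul, map_inv, hx₀, hg, conj_dswap, show γ.1 (o 0) = a from hγ 0,
        show γ.1 (o 1) = b from hγ 1, show γ.1 (o 2) = c from hγ 2, show γ.1 (o 3) = d from hγ 3])
    obtain ⟨m, rfl⟩ := P.exists_sc_mul (g := y) (h := g * y₀ * g⁻¹) (by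
      rw [hy, map_mul, map_mul, map_inv, hy₀, hg, conj_dswap, show γ.1 (o 0) = a from hγ 0,
        show γ.1 (o 1) = b from hγ 1, show γ.1 (o 2) = c from hγ 2, show γ.1 (o 3) = d from hγ 3])
    apply P.op_injective
    have e : P.op (g * x₀ * g⁻¹ * (g * y₀ * g⁻¹)) = (z : k) • P.op (g * y₀ * g⁻¹ * (g * x₀ * g⁻¹)) := by
      rw [show g * x₀ * g⁻¹ * (g * y₀ * g⁻¹) = g * (x₀ * y₀) * g⁻¹ by group,
        show g * y₀ * g⁻¹ * (g * x₀ * g⁻¹) = g * (y₀ * x₀) * g⁻¹ by group, hz]
      simp [op_sc]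
    rw [map_mul] at e
    simp only [map_mul, op_sc, smul_mul_assoc, mul_smul_comm, one_mul, smul_smul] at e ⊢
    rw [e, smul_smul]
    congr 1
    ring

end AltProj

end Cfsg.Agent.H63.AltSec
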