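import Cfsg.Agent.H63.AltSec.Basic

/-!
# Projective representations of alternating groups: setup

An `AltProj` is a group of operators, containing the scalars, irreducible, and mapping onto `A_r` with the
scalars as kernel.  Lifts of even permutations with disjoint supports commute.
-/

set_option linter.unusedSectionVars false

namespace Cfsg.Agent.H63.AltSec

open Module Equiv

section Cyc

variable {α : Type*} [DecidableEq α]

/-- The three-cycle `x → y → z → x`. -/
def cyc (x y z : α) : Perm α := Equiv.swap x y * Equiv.swap y z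

theorem cyc_apply_fst {x y z : α} (hxy : x ≠ y) (hxz : x ≠ z) : cyc x y z x = y := by
  simp [cyc, Equiv.swap_apply_of_ne_of_ne hxy hxz]

theorem cyc_apply_snd {x y z : α} (hxz : x ≠ z) (hyz : y ≠ z) : cyc x y z y = z := by
  simp [cyc, Equiv.swap_apply_of_ne_of_ne hxz.symm hyz.symm]

theorem cyc_apply_thd {x y z : α} : cyc x y z z = x := by
  simp [cyc]

theorem cyc_apply_of_ne {x y z w : α} (hx : w ≠ x) (hy : w ≠ y) (hz : w ≠ z) : cyc x y z w = w := by
  simp [cyc, Equiv.swap_apply_of_ne_of_ne, hx, hy, hz]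

theorem conj_cyc (σ : Perm α) (x y z : α) : σ * cyc x y z * σ⁻¹ = cyc (σ x) (σ y) (σ z) := by
  simp only [cyc, Equiv.swap_apply_apply]
  group

theorem cyc_rotate {x y z : α} (hxy : x ≠ y) (hxz : x ≠ z) (hyz : y ≠ z) : cyc y z x = cyc x y z := by
  ext w
  by_cases hx : w = x
  · subst hx; rw [cyc_apply_thd, cyc_apply_fst hxy hxz]
  by_cases hy : w = y
  · subst hy; rw [cyc_apply_fst hyz hxy.symm, cyc_apply_snd hxz hyz]
  by_cases hz : w = z
  · subst hz; rw [cyc_apply_snd hxy.symm hxz.symm, cyc_apply_thd]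
  rw [cyc_apply_of_ne hy hz hx, cyc_apply_of_ne hx hy hz]

theorem cyc_inv (x y z : α) : (cyc x y z)⁻¹ = cyc z y x := by
  simp only [cyc, mul_inv_rev, Equiv.swap_inv]
  rw [Equiv.swap_comm y z, Equiv.swap_comm x y]

variable [Fintype α]

theorem isThreeCycle_cyc {x y z : α} (hxy : x ≠ y) (hxz : x ≠ z) (hyz : y ≠ z) :
    (cyc x y z).IsThreeCycle := by
  rw [cyc, Equiv.swap_comm x y]
  exact Perm.isThreeCycle_swap_mul_swap_same hxy.symm hyz hxz

theorem sign_cyc {x y z : α} (hxy : x ≠ y) (hxz : x ≠ z) (hyz : y ≠ z) :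
    Perm.sign (cyc x y z) = 1 :=
  (isThreeCycle_cyc hxy hxz hyz).sign

theorem cyc_pow_three {x y z : α} (hxy : x ≠ y) (hxz : x ≠ z) (hyz : y ≠ z) : cyc x y z ^ 3 = 1 := by
  rw [← (isThreeCycle_cyc hxy hxz hyz).orderOf, pow_orderOf_eq_one]

theorem inv_eq_sq_of_pow_three {G : Type*} [Group G] {g : G} (h : g ^ 3 = 1) : g⁻¹ = g ^ 2 :=
  inv_eq_of_mul_eq_one_right (by rw [← pow_succ', h])

theorem exists_cyc_eq {τ : Perm α} (h : τ.IsThreeCycle) :
    ∃ x y z, x ≠ y ∧ x ≠ z ∧ y ≠ z ∧ τ = cyc x y z := by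
  obtain ⟨x, hx⟩ : τ.support.Nonempty := Finset.card_pos.1 (by rw [h.card_support]; norm_num)
  have h3 : τ ^ 3 = 1 := by rw [← h.orderOf, pow_orderOf_eq_one]
  have hc : ∀ w, τ (τ (τ w)) = w := fun w => by
    show (τ * (τ * τ)) w = w
    rw [← pow_two, ← pow_succ', h3]; rfl
  have hxy : x ≠ τ x := fun e => Perm.mem_support.1 hx e.symm
  have hyz : τ x ≠ τ (τ x) := fun e => hxy (τ.injective e)
  have hxz : x ≠ τ (τ x) := fun e => by
    have := congrArg τ e
    rw [hc] at this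
    exact hxy this.symm
  refine ⟨x, τ x, τ (τ x), hxy, hxz, hyz, ?_⟩
  have hsupp : ({x, τ x, τ (τ x)} : Finset α) = τ.support := by
    refine Finset.eq_of_subset_of_card_le ?_ ?_
    · intro w hw
      simp only [Finset.mem_insert, Finset.mem_singleton] at hw
      rcases hw with rfl | rfl | rfl
      · exact hx
      · exact Perm.apply_mem_support.2 hx
      · exact Perm.apply_mem_support.2 (Perm.apply_mem_support.2 hx)
    · rw [h.card_support, Finset.card_insert_of_notMem (by simp [hxy, hxz]), Finset.card_pair hyz]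
  ext w
  by_cases h1 : w = x
  · subst h1; rw [cyc_apply_fst hxy hxz]
  by_cases h2 : w = τ x
  · subst h2; rw [cyc_apply_snd hxz hyz]
  by_cases h3' : w = τ (τ x)
  · subst h3'; rw [cyc_apply_thd, hc]
  rw [cyc_apply_of_ne h1 h2 h3', Perm.notMem_support.1]
  rw [← hsupp]
  simp [h1, h2, h3']

theorem support_cyc {x y z : α} (hxy : x ≠ y) (hxz : x ≠ z) (hyz : y ≠ z) :
    (cyc x y z).support = {x, y, z} := by
  refine (Finset.eq_of_subset_of_card_le ?_ ?_).symm
  · intro w hw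
    rw [Perm.mem_support]
    simp only [Finset.mem_insert, Finset.mem_singleton] at hw
    rcases hw with rfl | rfl | rfl
    · rw [cyc_apply_fst hxy hxz]; exact hxy.symm
    · rw [cyc_apply_snd hxz hyz]; exact hyz.symm
    · rw [cyc_apply_thd]; exact hxz
  · rw [(isThreeCycle_cyc hxy hxz hyz).card_support,
      Finset.card_insert_of_notMem (by simp [hxy, hxz]), Finset.card_pair hyz]

/-- A subgroup containing all three-cycles through a fixed ordered pair contains all three-cycles. -/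
theorem threeCycle_mem_of_star (S : Subgroup (Perm α)) {a b : α} (hab : a ≠ b)
    (h5 : 5 ≤ Fintype.card α) (h : ∀ x, x ≠ a → x ≠ b → cyc a b x ∈ S) {τ : Perm α}
    (hτ : τ.IsThreeCycle) : τ ∈ S := by
  have conj : ∀ σ ∈ S, ∀ x y z, cyc x y z ∈ S → cyc (σ x) (σ y) (σ z) ∈ S := fun σ hσ x y z hm => by
    rw [← conj_cyc]; exact S.mul_mem (S.mul_mem hσ hm) (S.inv_mem hσ)
  have hinv : ∀ x y z, cyc x y z ∈ S → cyc z y x ∈ S := fun x y z hm => cyc_inv x y z ▸ S.inv_mem hm
  have hB : ∀ x y, x ≠ a → x ≠ b → y ≠ a → y ≠ b → x ≠ y → cyc b y x ∈ S := by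
    intro x y hxa hxb hya hyb hxy
    have := conj _ (h y hya hyb) _ _ _ (h x hxa hxb)
    rwa [cyc_apply_fst hab hya.symm, cyc_apply_snd hya.symm hyb.symm,
      cyc_apply_of_ne hxa hxb hxy] at this
  have hC : ∀ x y, x ≠ a → x ≠ b → y ≠ a → y ≠ b → x ≠ y → cyc a y x ∈ S := by
    intro x y hxa hxb hya hyb hxy
    obtain ⟨w, hw⟩ : ∃ w, w ∉ ({a, b, x, y} : Finset α) := by
      by_contra hcon
      push Not at hcon
      have hall : (Finset.univ : Finset α) ⊆ {a, b, x, y} := fun p _ => hcon p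
      have := (Finset.card_le_card hall).trans Finset.card_le_four
      rw [Finset.card_univ] at this
      omega
    simp only [Finset.mem_insert, Finset.mem_singleton, not_or] at hw
    have := conj _ (hinv _ _ _ (h w hw.1 hw.2.1)) _ _ _ (hB x y hxa hxb hya hyb hxy)
    rwa [cyc_apply_snd hw.1 hab.symm, cyc_apply_of_ne (Ne.symm hw.2.2.2) hyb hya,
      cyc_apply_of_ne (Ne.symm hw.2.2.1) hxb hxa] at this
  have hA : ∀ x y z, x ≠ a → x ≠ b → y ≠ a → y ≠ b → z ≠ a → z ≠ b → x ≠ y → x ≠ z → y ≠ z →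
      cyc x y z ∈ S := by
    intro x y z hxa hxb hya hyb hza hzb hxy hxz hyz
    have hs : cyc b x a ∈ S := by
      have := h x hxa hxb
      rwa [← cyc_rotate hab hxa.symm hxb.symm] at this
    have := conj _ hs _ _ _ (hB z y hza hzb hya hyb hyz.symm)
    rwa [cyc_apply_fst hxb.symm hab.symm, cyc_apply_of_ne hyb hxy.symm hya,
      cyc_apply_of_ne hzb hxz.symm hza] at this
  obtain ⟨x, y, z, hxy, hxz, hyz, rfl⟩ := exists_cyc_eq hτ
  have key : ∀ x y z, x ≠ y → x ≠ z → y ≠ z → (y ≠ a ∧ y ≠ b ∧ z ≠ a ∧ z ≠ b) → cyc x y z ∈ S := by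
    intro x y z hxy hxz hyz ⟨hya, hyb, hza, hzb⟩
    by_cases hxa : x = a
    · subst hxa; exact hC z y hza hzb hya hyb hyz.symm
    by_cases hxb : x = b
    · subst hxb; exact hB z y hza hzb hya hyb hyz.symm
    exact hA x y z hxa hxb hya hyb hza hzb hxy hxz hyz
  have pairCase : ∀ x y z, x ≠ y → x ≠ z → y ≠ z → ((x = a ∧ y = b) ∨ (x = b ∧ y = a)) → cyc x y z ∈ S := by
    rintro x y z hxy hxz hyz (⟨rfl, rfl⟩ | ⟨rfl, rfl⟩)
    · exact h z hxz.symm hyz.symm
    · have hm := hinv _ _ _ (h z hyz.symm hxz.symm)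
      rwa [← cyc_rotate hxz.symm hyz.symm hxy] at hm
  have r1 := cyc_rotate hxy hxz hyz
  have r2 := cyc_rotate hyz hxy.symm hxz.symm
  by_cases hxy' : (x = a ∧ y = b) ∨ (x = b ∧ y = a)
  · exact pairCase x y z hxy hxz hyz hxy'
  by_cases hyz' : (y = a ∧ z = b) ∨ (y = b ∧ z = a)
  · rw [← r1]; exact pairCase y z x hyz hxy.symm hxz.symm hyz'
  by_cases hzx' : (z = a ∧ x = b) ∨ (z = b ∧ x = a)
  · rw [← r1, ← r2]; exact pairCase z x y hxz.symm hyz.symm hxy hzx'
  by_cases hy : y ≠ a ∧ y ≠ b ∧ z ≠ a ∧ z ≠ b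
  · exact key x y z hxy hxz hyz hy
  by_cases hz : z ≠ a ∧ z ≠ b ∧ x ≠ a ∧ x ≠ b
  · rw [← r1]; exact key y z x hyz hxy.symm hxz.symm hz
  · rw [← r1, ← r2]
    refine key z x y hxz.symm hyz.symm hxy ?_
    simp only [ne_eq, not_and_or, not_not] at hy hz
    refine ⟨?_, ?_, ?_, ?_⟩ <;> intro e <;> subst e <;> grind

end Cyc

/-- A scalar operator as a unit. -/
def scalarUnit (k V : Type*) [Field k] [AddCommGroup V] [Module k V] : kˣ →* (Module.End k V)ˣ :=
  Units.map (algebraMap k (Module.End k V)).toMonoidHom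

/-- An irreducible group of operators which is `A_r` modulo scalars. -/
structure AltProj (k : Type*) [Field k] (V : Type*) [AddCommGroup V] [Module k V] (r : ℕ) where
  /-- The group of operators. -/
  G : Subgroup (Module.End k V)ˣ
  /-- The projection to the alternating group. -/
  π : ↥G →* alternatingGroup (Fin r)
  surj : Function.Surjective π
  scalar_mem : ∀ c : kˣ, scalarUnit k V c ∈ G
  ker_iff : ∀ g : ↥G, π g = 1 ↔ ∃ c : kˣ, (g : (Module.End k V)ˣ) = scalarUnit k V c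
  irred : ∀ W : Submodule k V, (∀ g : ↥G, ∀ v ∈ W, ((g : (Module.End k V)ˣ) : Module.End k V) v ∈ W) →
    W = ⊥ ∨ W = ⊤
  nine_le : 9 ≤ r

namespace AltProj

variable {k : Type*} [Field k] {V : Type*} [AddCommGroup V] [Module k V] {r : ℕ} (P : AltProj k V r)

/-- The underlying operator. -/
def op : ↥P.G →* Module.End k V := (Units.coeHom _).comp P.G.subtype

/-- The underlying permutation. -/
def πP : ↥P.G →* Perm (Fin r) := (alternatingGroup (Fin r)).subtype.comp P.π

theorem op_injective : Function.Injective P.op := fun _ _ h => Subtype.ext (Units.ext h)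

theorem op_inv_apply (g : ↥P.G) (v : V) : P.op g⁻¹ (P.op g v) = v := by
  rw [← Module.End.mul_apply, ← map_mul, inv_mul_cancel, map_one, Module.End.one_apply]

theorem op_apply_inv (g : ↥P.G) (v : V) : P.op g (P.op g⁻¹ v) = v := by
  rw [← Module.End.mul_apply, ← map_mul, mul_inv_cancel, map_one, Module.End.one_apply]

theorem op_apply_injective (g : ↥P.G) : Function.Injective (P.op g) :=
  Function.LeftInverse.injective (P.op_inv_apply g)

theorem exists_lift {σ : Perm (Fin r)} (hσ : Perm.sign σ = 1) : ∃ g, P.πP g = σ := by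
  obtain ⟨g, hg⟩ := P.surj ⟨σ, Perm.mem_alternatingGroup.2 hσ⟩
  exact ⟨g, congrArg Subtype.val hg⟩

theorem sign_πP (g : ↥P.G) : Perm.sign (P.πP g) = 1 := Perm.mem_alternatingGroup.1 (P.π g).2

/-- The scalar element of the group. -/
def sc : kˣ →* ↥P.G := (scalarUnit k V).codRestrict P.G P.scalar_mem

theorem op_sc (c : kˣ) : P.op (P.sc c) = (c : k) • (1 : Module.End k V) :=
  Algebra.algebraMap_eq_smul_one (c : k)

theorem πP_eq_one_iff (g : ↥P.G) : P.πP g = 1 ↔ ∃ c, g = P.sc c := by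
  rw [show P.πP g = 1 ↔ P.π g = 1 from (Subtype.ext_iff (a1 := P.π g) (a2 := 1)).symm, P.ker_iff]
  exact ⟨fun ⟨c, hc⟩ => ⟨c, Subtype.ext hc⟩, fun ⟨c, hc⟩ => ⟨c, congrArg Subtype.val hc⟩⟩

theorem πP_sc (c : kˣ) : P.πP (P.sc c) = 1 := (P.πP_eq_one_iff _).2 ⟨c, rfl⟩

theorem sc_comm (c : kˣ) (g : ↥P.G) : P.sc c * g = g * P.sc c := by
  apply P.op_injective
  simp [op_sc]

theorem exists_sc_mul {g h : ↥P.G} (e : P.πP g = P.πP h) : ∃ c, g = P.sc c * h := by
  obtain ⟨c, hc⟩ := (P.πP_eq_one_iff (g * h⁻¹)).1 (by simp [e])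
  exact ⟨c, by rw [← hc, inv_mul_cancel_right]⟩

theorem ne_scalar {g : ↥P.G} (h : P.πP g ≠ 1) (c : k) : P.op g ≠ c • 1 := by
  intro e
  apply h
  rcases eq_or_ne c 0 with rfl | hc
  · have : (1 : Module.End k V) = 0 := by
      rw [← map_one P.op, ← inv_mul_cancel g, map_mul, e]
      simp
    exact (P.πP_eq_one_iff g).2 ⟨1, P.op_injective (by rw [e, map_one, map_one, this]; simp)⟩
  · exact (P.πP_eq_one_iff g).2 ⟨Units.mk0 c hc, P.op_injective (by rw [op_sc, e]; rfl)⟩

include P in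
theorem nontrivial : Nontrivial V := by
  by_contra hn
  rw [not_nontrivial_iff_subsingleton] at hn
  have h3 : (cyc (⟨0, by have := P.nine_le; omega⟩ : Fin r) ⟨1, by have := P.nine_le; omega⟩
      ⟨2, by have := P.nine_le; omega⟩).IsThreeCycle :=
    isThreeCycle_cyc (by simp) (by simp) (by simp)
  obtain ⟨g, hg⟩ := P.exists_lift h3.sign
  refine P.ne_scalar (g := g) ?_ 1 (LinearMap.ext fun v => Subsingleton.elim _ _)
  rw [hg]
  intro e
  have := h3.orderOf
  rw [e, orderOf_one] at this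
  omega

/-- A subgroup containing the scalars and all lifts of three-cycles inside `S` contains every lift of a
permutation supported in `S`. -/
theorem mem_of_threeCycles (C : Subgroup ↥P.G) (hsc : ∀ c, P.sc c ∈ C) (S : Finset (Fin r))
    (h : ∀ g, (P.πP g).IsThreeCycle → (P.πP g).support ⊆ S → g ∈ C) {g : ↥P.G}
    (hg : (P.πP g).support ⊆ S) : g ∈ C := by
  have hle : Subgroup.closure {τ : Perm (Fin r) | τ.IsThreeCycle ∧ τ.support ⊆ S} ≤ C.map P.πP := by
    rw [Subgroup.closure_le]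
    rintro τ ⟨hτ, hτS⟩
    obtain ⟨g', rfl⟩ := P.exists_lift hτ.sign
    exact ⟨g', h g' hτ hτS, rfl⟩
  obtain ⟨g', hg', e⟩ := hle (mem_closure_threeCycles_of_support (P.sign_πP g) S hg)
  obtain ⟨c, rfl⟩ := P.exists_sc_mul e.symm
  exact C.mul_mem (hsc c) hg'

/-- The operators preserving a subspace. -/
def stab (W : Submodule k V) : Subgroup ↥P.G where
  carrier := {g | ∀ v, v ∈ W ↔ P.op g v ∈ W}
  one_mem' := fun v => by simp
  mul_mem' := fun {x y} hx hy v => by
    rw [map_mul, Module.End.mul_apply]; exact (hy v).trans (hx _)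
  inv_mem' := fun {x} hx v => by
    conv_lhs => rw [← P.op_apply_inv x v]
    exact (hx _).symm

theorem mem_stab [FiniteDimensional k V] {W : Submodule k V} {g : ↥P.G}
    (hg : ∀ v ∈ W, P.op g v ∈ W) : g ∈ P.stab W := by
  intro v
  refine ⟨hg v, fun hv => ?_⟩
  have hle : W.map (P.op g) ≤ W := by
    rintro _ ⟨w, hw, rfl⟩; exact hg w hw
  have heq := Submodule.eq_of_le_of_finrank_le hle
    (le_of_eq (LinearEquiv.finrank_eq (Submodule.equivMapOfInjective _ (P.op_apply_injective g) W)))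
  rw [← heq] at hv
  obtain ⟨w, hw, e⟩ := hv
  exact P.op_apply_injective g e ▸ hw

theorem sc_mem_stab (W : Submodule k V) (c : kˣ) : P.sc c ∈ P.stab W := by
  intro v
  rw [op_sc]
  exact (W.smul_mem_iff c.ne_zero).symm

/-- A subspace invariant under lifts of all three-cycles is trivial. -/
theorem invariant_threeCycles [FiniteDimensional k V] (W : Submodule k V)
    (h : ∀ g : ↥P.G, (P.πP g).IsThreeCycle → ∀ v ∈ W, P.op g v ∈ W) : W = ⊥ ∨ W = ⊤ :=
  P.irred W fun g v hv => (P.mem_of_threeCycles (P.stab W) (P.sc_mem_stab W) Finset.univ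
    (fun g hg _ => P.mem_stab (h g hg)) (g := g) (Finset.subset_univ _) v).1 hv

/-- A subspace invariant under the lifts of the three-cycles through two points is trivial. -/
theorem invariant_star [FiniteDimensional k V] (W : Submodule k V) {a b : Fin r} (hab : a ≠ b)
    (h : ∀ x, x ≠ a → x ≠ b → ∃ g : ↥P.G, P.πP g = cyc a b x ∧ ∀ v ∈ W, P.op g v ∈ W) :
    W = ⊥ ∨ W = ⊤ := by
  refine P.invariant_threeCycles W fun g hg v hv => ?_
  have hmem : P.πP g ∈ (P.stab W).map P.πP := threeCycle_mem_of_star _ hab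
    (by have := P.nine_le; simp; omega) (fun x hxa hxb => by
      obtain ⟨g', hg', hW⟩ := h x hxa hxb
      exact ⟨g', P.mem_stab hW, hg'⟩) hg
  obtain ⟨g', hg', e⟩ := hmem
  obtain ⟨c, rfl⟩ := P.exists_sc_mul e.symm
  rw [map_mul, op_sc]
  exact W.smul_mem _ ((hg' v).1 hv)

theorem sc_eq_one {c : kˣ} (h : P.sc c = 1) : c = 1 := by
  haveI := P.nontrivial
  have e : ((c : k) • (1 : Module.End k V)) = (1 : k) • 1 := by
    rw [one_smul, ← P.op_sc, h, map_one]
  exact Units.ext (smul_left_injective k (one_ne_zero (α := Module.End k V)) e)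

theorem exists_comm_scalar {g h : ↥P.G} (e : Commute (P.πP g) (P.πP h)) :
    ∃ c, g * h = P.sc c * (h * g) :=
  P.exists_sc_mul (by rw [map_mul, map_mul, e])

/-- Lifts of disjoint three-cycles commute. -/
theorem commute_threeCycles {g h : ↥P.G} (hg : (P.πP g).IsThreeCycle) (hh : (P.πP h).IsThreeCycle)
    (hd : Disjoint (P.πP g).support (P.πP h).support) : Commute g h := by
  have hr := P.nine_le
  obtain ⟨a, b, c, hab, hac, hbc, ea⟩ := exists_cyc_eq hg
  obtain ⟨d, e, f, hde, hdf, hef, eb⟩ := exists_cyc_eq hh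
  rw [ea, eb, support_cyc hab hac hbc, support_cyc hde hdf hef] at hd
  simp only [Finset.disjoint_left, Finset.mem_insert, Finset.mem_singleton, not_or] at hd
  obtain ⟨hda, hea, hfa⟩ := hd (Or.inl rfl : a = a ∨ a = b ∨ a = c)
  obtain ⟨hdb, heb, hfb⟩ := hd (Or.inr (Or.inl rfl) : b = a ∨ b = b ∨ b = c)
  obtain ⟨hdc, hec, hfc⟩ := hd (Or.inr (Or.inr rfl) : c = a ∨ c = b ∨ c = c)
  obtain ⟨γ, hγ⟩ := exists_even_map (α := Fin r) (m := 6) (by simp; omega) ![a, b, c, d, e, f]
    ![a, b, c, f, e, d]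
    (by intro i j; fin_cases i <;> fin_cases j <;> simp <;> grind)
    (by intro i j; fin_cases i <;> fin_cases j <;> simp <;> grind)
  obtain ⟨t, ht⟩ := P.exists_lift (Perm.mem_alternatingGroup.1 γ.2)
  have h1 : γ.1 a = a := hγ 0
  have h2 : γ.1 b = b := hγ 1
  have h3 : γ.1 c = c := hγ 2
  have h4 : γ.1 d = f := hγ 3
  have h5 : γ.1 e = e := hγ 4
  have h6 : γ.1 f = d := hγ 5
  obtain ⟨l, hl⟩ := P.exists_sc_mul (g := t * g * t⁻¹) (h := g)
    (by rw [map_mul, map_mul, map_inv, ht, ea, conj_cyc, h1, h2, h3])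
  obtain ⟨m, hm⟩ := P.exists_sc_mul (g := t * h * t⁻¹) (h := h⁻¹)
    (by rw [map_mul, map_mul, map_inv, map_inv, ht, eb, conj_cyc, h4, h5, h6, cyc_inv])
  have hdisj : Perm.Disjoint (P.πP g) (P.πP h) := by
    rw [Perm.disjoint_iff_disjoint_support, ea, eb, support_cyc hab hac hbc, support_cyc hde hdf hef]
    simp only [Finset.disjoint_left, Finset.mem_insert, Finset.mem_singleton, not_or]
    exact hd
  obtain ⟨z, hz⟩ := P.exists_comm_scalar hdisj.commute
  have hcen : ∀ (u : kˣ) (x y : ↥P.G), x * (P.sc u * y) = P.sc u * (x * y) := fun u x y => by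
    rw [← mul_assoc, ← P.sc_comm, mul_assoc]
  -- conjugating the commutator relation gives `z² = 1`
  have hz2 : g * h⁻¹ = P.sc z * (h⁻¹ * g) := by
    have := congrArg (fun x => t * x * t⁻¹) hz
    rw [show t * (g * h) * t⁻¹ = (t * g * t⁻¹) * (t * h * t⁻¹) by group,
      show t * (P.sc z * (h * g)) * t⁻¹ = P.sc z * ((t * h * t⁻¹) * (t * g * t⁻¹)) by
        rw [← mul_assoc t, ← P.sc_comm]; group, hl, hm] at this
    rw [mul_assoc (P.sc l), hcen m g h⁻¹, mul_assoc (P.sc m) h⁻¹, hcen l h⁻¹ g,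
      ← mul_assoc (P.sc l), ← map_mul, ← mul_assoc (P.sc m), ← map_mul, ← mul_assoc (P.sc z), ← map_mul,
      show z * (m * l) = l * m * z by ac_rfl, map_mul (P.sc) (l * m) z, mul_assoc] at this
    exact mul_left_cancel this
  have hsq : z ^ 2 = 1 := by
    have e1 : h⁻¹ * g = P.sc z * (g * h⁻¹) := by
      calc h⁻¹ * g = h⁻¹ * (g * h) * h⁻¹ := by group
        _ = h⁻¹ * (P.sc z * (h * g)) * h⁻¹ := by rw [hz]
        _ = P.sc z * (g * h⁻¹) := by rw [hcen]; group
    rw [hz2, ← mul_assoc, ← map_mul] at e1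
    nth_rewrite 1 [← one_mul (h⁻¹ * g)] at e1
    have e2 : P.sc (z * z) = 1 := (mul_right_cancel e1).symm
    rw [pow_two]
    exact P.sc_eq_one e2
  obtain ⟨u, hu⟩ := (P.πP_eq_one_iff (h ^ 3)).1 (by rw [map_pow, eb, cyc_pow_three hde hdf hef])
  have hcube : z ^ 3 = 1 := by
    have step : ∀ j : ℕ, g * h ^ j = P.sc (z ^ j) * (h ^ j * g) := by
      intro j
      induction j with
      | zero => simp
      | succ j ih =>
        rw [pow_succ, ← mul_assoc, ih, mul_assoc, mul_assoc (h ^ j), hz, hcen, ← mul_assoc (P.sc _),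
          ← map_mul, pow_succ, mul_assoc]
    have e3 := step 3
    rw [hu, ← P.sc_comm, ← mul_assoc] at e3
    nth_rewrite 1 [← one_mul (P.sc u)] at e3
    rw [mul_left_inj, mul_left_inj] at e3
    exact P.sc_eq_one e3.symm
  have hz1 : z = 1 := by
    rw [pow_succ, hsq, one_mul] at hcube; exact hcube
  rw [hz1, map_one, one_mul] at hz
  exact hz

theorem sc_mem_centralizer (c : kˣ) (h : ↥P.G) : P.sc c ∈ Subgroup.centralizer {h} :=
  Subgroup.mem_centralizer_singleton_iff.2 (P.sc_comm c h)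

/-- Lifts of permutations with disjoint supports commute. -/
theorem commute_of_disjoint {g h : ↥P.G} (hd : Disjoint (P.πP g).support (P.πP h).support) :
    Commute g h := by
  have step : ∀ g h : ↥P.G, (P.πP h).IsThreeCycle →
      Disjoint (P.πP g).support (P.πP h).support → Commute g h := by
    intro g h hh hd
    refine Subgroup.mem_centralizer_singleton_iff.1 (P.mem_of_threeCycles (Subgroup.centralizer {h})
      (fun c => P.sc_mem_centralizer c h) _ (fun t ht hts => ?_) (Finset.Subset.refl (P.πP g).support))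
    exact Subgroup.mem_centralizer_singleton_iff.2 (P.commute_threeCycles ht hh (hd.mono_left hts))
  refine (Subgroup.mem_centralizer_singleton_iff.1 (P.mem_of_threeCycles (Subgroup.centralizer {g})
    (fun c => P.sc_mem_centralizer c g) _ (fun t ht hts => ?_) (Finset.Subset.refl (P.πP h).support))).symm
  exact Subgroup.mem_centralizer_singleton_iff.2 (step g t ht (hd.mono_right hts)).symm

/-- A lift of `σ`, exactly squared by every lift of an element squaring `σ`. -/
theorem exists_normLift {σ γ : Perm (Fin r)} (hσ : Perm.sign σ = 1) (hγ : Perm.sign γ = 1)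
    (hconj : γ * σ * γ⁻¹ = σ ^ 2) :
    ∃ g, P.πP g = σ ∧ ∀ t, P.πP t = γ → t * g * t⁻¹ = g ^ 2 := by
  obtain ⟨g₀, hg₀⟩ := P.exists_lift hσ
  obtain ⟨t₀, ht₀⟩ := P.exists_lift hγ
  obtain ⟨c, hc⟩ := P.exists_sc_mul (g := t₀ * g₀ * t₀⁻¹) (h := g₀ ^ 2)
    (by rw [map_mul, map_mul, map_inv, map_pow, ht₀, hg₀, hconj])
  refine ⟨P.sc c * g₀, by rw [map_mul, P.πP_sc, one_mul, hg₀], fun t ht => ?_⟩
  obtain ⟨d, rfl⟩ := P.exists_sc_mul (g := t) (h := t₀) (by rw [ht, ht₀])
  have hd : ∀ x : ↥P.G, P.sc d * x * (P.sc d)⁻¹ = x := fun x => by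
    rw [P.sc_comm, mul_inv_cancel_right]
  rw [show P.sc d * t₀ * (P.sc c * g₀) * (P.sc d * t₀)⁻¹ =
      P.sc d * (t₀ * (P.sc c * g₀) * t₀⁻¹) * (P.sc d)⁻¹ by group, hd,
    ← mul_assoc t₀, ← P.sc_comm c t₀, mul_assoc (P.sc c), mul_assoc (P.sc c), hc,
    (Commute.mul_pow (P.sc_comm c g₀) 2), pow_two (P.sc c), mul_assoc]

theorem pow_eq_one_of_normLift {g t : ↥P.G} (h : t * g * t⁻¹ = g ^ 2) {m : ℕ} (hm : P.πP g ^ m = 1) :
    g ^ m = 1 := by
  obtain ⟨c, hc⟩ := (P.πP_eq_one_iff (g ^ m)).1 (by rw [map_pow, hm])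
  have e := congrArg (fun x => x ^ m) h
  simp only [conj_pow] at e
  rw [← pow_mul, mul_comm, pow_mul, hc, ← P.sc_comm, mul_inv_cancel_right, pow_two] at e
  rw [hc]
  exact mul_left_cancel (e.symm.trans (mul_one _).symm)

theorem finrank_eigen_le_of_conj [FiniteDimensional k V] {ι : Type*} (t : ↥P.G) (A B : ι → ↥P.G)
    (χ : ι → k) (h : ∀ i, t * A i * t⁻¹ = B i) :
    Module.finrank k ↥(jointEigen (fun i => P.op (A i)) χ) ≤
      Module.finrank k ↥(jointEigen (fun i => P.op (B i)) χ) := by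
  rw [LinearEquiv.finrank_eq (Submodule.equivMapOfInjective _ (P.op_apply_injective t) _)]
  refine Submodule.finrank_mono ?_
  rintro _ ⟨v, hv, rfl⟩
  refine mem_jointEigen.2 fun i => ?_
  rw [← h i, ← Module.End.mul_apply, ← map_mul, inv_mul_cancel_right, map_mul, Module.End.mul_apply,
    mem_jointEigen.1 hv i, map_smul]

end AltProj

end Cfsg.Agent.H63.AltSec
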