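import Mathlib

/-!
# Preliminaries for the minimal degree of alternating sections

Joint eigenspaces of commuting semisimple operators, and facts on even permutations.
-/

set_option linter.unusedSectionVars false

namespace Cfsg.Agent.H63.AltSec

open Module

section Eigen

variable {k V : Type*} [Field k] [AddCommGroup V] [Module k V] {ι : Type*}

/-- Joint eigenspace of a family of operators. -/
def jointEigen (A : ι → End k V) (χ : ι → k) : Submodule k V :=
  ⨅ i, (A i).eigenspace (χ i)

theorem mem_jointEigen {A : ι → End k V} {χ : ι → k} {v : V} :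
    v ∈ jointEigen A χ ↔ ∀ i, A i v = χ i • v := by
  simp [jointEigen, Submodule.mem_iInf, End.mem_eigenspace_iff]

theorem iSupIndep_finrank_sup [FiniteDimensional k V] {κ : Type*} (p : κ → Submodule k V)
    (h : iSupIndep p) (S : Finset κ) :
    finrank k ↥(S.sup p) = ∑ i ∈ S, finrank k ↥(p i) := by
  classical
  induction S using Finset.induction with
  | empty => simp
  | insert a S ha ih =>
    rw [Finset.sup_insert, Finset.sum_insert ha, ← ih]
    have hd : Disjoint (p a) (S.sup p) :=
      (h a).mono_right (Finset.sup_le fun i hi => le_iSup₂ (f := fun j (_ : j ≠ a) => p j) i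
        fun e => ha (e ▸ hi))
    have := Submodule.finrank_sup_add_finrank_inf_eq (p a) (S.sup p)
    rwa [disjoint_iff.1 hd, finrank_bot, add_zero] at this

theorem iSupIndep_sum_finrank_le [FiniteDimensional k V] {κ : Type*} (p : κ → Submodule k V)
    (h : iSupIndep p) (S : Finset κ) : ∑ i ∈ S, finrank k ↥(p i) ≤ finrank k V := by
  rw [← iSupIndep_finrank_sup p h S]
  exact Submodule.finrank_le _

variable [IsAlgClosed k] [FiniteDimensional k V] [Fintype ι]
  (A : ι → End k V) (hc : ∀ i j, Commute (A i) (A j)) {m : ℕ} (hm : (m : k) ≠ 0)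
  (hA : ∀ i, A i ^ m = 1)

include hm in
theorem isSemisimple_of_pow_eq_one {T : End k V} (hT : T ^ m = 1) : T.IsSemisimple := by
  refine End.isSemisimple_of_squarefree_aeval_eq_zero (p := Polynomial.X ^ m - 1) ?_ ?_
  · exact ((Polynomial.X_pow_sub_one_separable_iff).2 hm).squarefree
  · simp [hT]

include hm hA in
theorem jointEigen_eq_maxGen (χ : ι → k) :
    jointEigen A χ = ⨅ i, (A i).maxGenEigenspace (χ i) := by
  refine iInf_congr fun i => ?_
  exact ((isSemisimple_of_pow_eq_one hm (hA i)).isFinitelySemisimple.maxGenEigenspace_eq_eigenspace _).symm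

include hc hm hA in
theorem iSup_jointEigen : ⨆ χ, jointEigen A χ = ⊤ := by
  simp only [jointEigen_eq_maxGen A hm hA]
  exact End.iSup_iInf_maxGenEigenspace_eq_top_of_iSup_maxGenEigenspace_eq_top_of_commute A
    (fun i j _ => hc i j) fun i => End.iSup_maxGenEigenspace_eq_top _

include hc hm hA in
theorem iSupIndep_jointEigen : iSupIndep (jointEigen A) := by
  have : jointEigen A = fun χ => ⨅ i, (A i).maxGenEigenspace (χ i) :=
    funext (jointEigen_eq_maxGen A hm hA)
  rw [this]
  exact End.independent_iInf_maxGenEigenspace_of_forall_mapsTo A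
    fun i j φ => End.mapsTo_maxGenEigenspace_of_comm (hc j i) φ

include hc hm hA in
theorem sum_finrank_jointEigen_le (S : Finset (ι → k)) :
    ∑ χ ∈ S, finrank k ↥(jointEigen A χ) ≤ finrank k V :=
  iSupIndep_sum_finrank_le _ (iSupIndep_jointEigen A hc hm hA) S

include hc hm hA in
/-- Distinct non-zero weights bound the dimension. -/
theorem card_mul_le_finrank {κ : Type*} (χ : κ → ι → k) (hχ : Function.Injective χ) (S : Finset κ)
    (d : ℕ) (hd : ∀ w ∈ S, d ≤ finrank k ↥(jointEigen A (χ w))) : S.card * d ≤ finrank k V := by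
  classical
  refine le_trans ?_ (sum_finrank_jointEigen_le A hc hm hA (S.image χ))
  rw [Finset.sum_image fun a _ b _ h => hχ h, ← smul_eq_mul]
  exact Finset.card_nsmul_le_sum _ _ _ hd

include hc hm hA in
theorem sup_jointEigen_eq_top (S : Finset (ι → k)) (hS : ∀ χ, jointEigen A χ ≠ ⊥ → χ ∈ S) :
    S.sup (jointEigen A) = ⊤ := by
  rw [eq_top_iff, ← iSup_jointEigen A hc hm hA]
  refine iSup_le fun χ => ?_
  by_cases h : jointEigen A χ = ⊥
  · rw [h]; exact bot_le
  · exact Finset.le_sup (hS χ h)

include hc hm hA in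
theorem finrank_eq_sum_jointEigen (S : Finset (ι → k)) (hS : ∀ χ, jointEigen A χ ≠ ⊥ → χ ∈ S) :
    finrank k V = ∑ χ ∈ S, finrank k ↥(jointEigen A χ) := by
  rw [← iSupIndep_finrank_sup _ (iSupIndep_jointEigen A hc hm hA) S,
    sup_jointEigen_eq_top A hc hm hA S hS, finrank_top]

include hc hm hA in
theorem eigenspace_eq_sup [DecidableEq k] (S : Finset (ι → k))
    (hS : ∀ χ, jointEigen A χ ≠ ⊥ → χ ∈ S) (i : ι) (μ : k) :
    (A i).eigenspace μ = (S.filter fun χ => χ i = μ).sup (jointEigen A) := by
  classical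
  refine le_antisymm (fun x hx => ?_) (Finset.sup_le fun χ hχ => ?_)
  · have htop : x ∈ S.sup (jointEigen A) := by
      rw [sup_jointEigen_eq_top A hc hm hA S hS]; trivial
    rw [← Finset.filter_union_filter_not_eq (fun χ => χ i = μ) S, Finset.sup_union,
      Submodule.mem_sup] at htop
    obtain ⟨a, ha, b, hb, rfl⟩ := htop
    have ha' : a ∈ (A i).eigenspace μ := by
      refine SetLike.le_def.1 (Finset.sup_le fun χ hχ => ?_) ha
      intro y hy
      rw [End.mem_eigenspace_iff, mem_jointEigen.1 hy i, (Finset.mem_filter.1 hχ).2]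
    have hb' : b ∈ ⨆ ν, ⨆ (_ : ν ≠ μ), (A i).eigenspace ν := by
      refine SetLike.le_def.1 (Finset.sup_le fun χ hχ => ?_) hb
      exact (iInf_le _ i).trans (le_iSup₂ (f := fun ν (_ : ν ≠ μ) => (A i).eigenspace ν) (χ i)
        (Finset.mem_filter.1 hχ).2)
    have hb0 : b = 0 :=
      (Submodule.disjoint_def.1 ((A i).eigenspaces_iSupIndep μ)) b
        ((Submodule.add_mem_iff_right _ ha').1 hx) hb'
    rwa [hb0, add_zero]
  · intro y hy
    rw [End.mem_eigenspace_iff, mem_jointEigen.1 hy i, (Finset.mem_filter.1 hχ).2]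

include hc hm hA in
theorem finrank_eigenspace_eq_sum [DecidableEq k] (S : Finset (ι → k))
    (hS : ∀ χ, jointEigen A χ ≠ ⊥ → χ ∈ S) (i : ι) (μ : k) :
    finrank k ↥((A i).eigenspace μ) =
      ∑ χ ∈ S.filter (fun χ => χ i = μ), finrank k ↥(jointEigen A χ) := by
  rw [eigenspace_eq_sup A hc hm hA S hS i μ,
    iSupIndep_finrank_sup _ (iSupIndep_jointEigen A hc hm hA)]

end Eigen

section Perm

open Equiv Equiv.Perm

variable {α : Type*} [Fintype α] [DecidableEq α]

/-- An even permutation realising a prescribed injective tuple, given two spare points. -/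
theorem exists_even_map {m : ℕ} (hm : m + 2 ≤ Fintype.card α) (f g : Fin m → α)
    (hf : Function.Injective f) (hg : Function.Injective g) :
    ∃ σ : alternatingGroup α, ∀ i, (σ : Perm α) (f i) = g i := by
  classical
  let e : Set.range f ≃ Set.range g := (Equiv.ofInjective f hf).symm.trans (Equiv.ofInjective g hg)
  let σ : Perm α := e.extendSubtype
  have hσ : ∀ i, σ (f i) = g i := by
    intro i
    rw [Equiv.extendSubtype_apply_of_mem e _ ⟨i, rfl⟩]
    simp [e]
  rcases Int.units_eq_one_or (Perm.sign σ) with h | h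
  · exact ⟨⟨σ, Perm.mem_alternatingGroup.2 h⟩, hσ⟩
  · have hc : 2 ≤ ((Finset.univ.image f)ᶜ).card := by
      rw [Finset.card_compl, Finset.card_image_of_injective _ hf, Finset.card_univ, Fintype.card_fin]
      omega
    obtain ⟨a, ha, b, hb, hab⟩ := Finset.one_lt_card.1 hc
    refine ⟨⟨σ * Equiv.swap a b, Perm.mem_alternatingGroup.2 ?_⟩, fun i => ?_⟩
    · rw [map_mul, h, Perm.sign_swap hab]; rfl
    · have : f i ≠ a ∧ f i ≠ b := by
        constructor <;> rintro rfl <;> simp_all
      show σ (Equiv.swap a b (f i)) = g i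
      rw [Equiv.swap_apply_of_ne_of_ne this.1 this.2, hσ]

/-- An even permutation lies in the closure of the three-cycles inside any set containing its support. -/
theorem mem_closure_threeCycles_of_support {σ : Perm α} (hσ : Perm.sign σ = 1) (S : Finset α)
    (hS : σ.support ⊆ S) :
    σ ∈ Subgroup.closure {τ : Perm α | τ.IsThreeCycle ∧ τ.support ⊆ S} := by
  classical
  have hinv : ∀ x, σ x ∈ S ↔ x ∈ S := fun x => by
    by_cases hx : x ∈ σ.support
    · exact iff_of_true (hS (Perm.apply_mem_support.2 hx)) (hS hx)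
    · rw [Perm.notMem_support.1 hx]
  let σ' : Perm {x // x ∈ S} := σ.subtypePerm hinv
  have hσ' : σ' ∈ alternatingGroup {x // x ∈ S} := by
    rw [Perm.mem_alternatingGroup]
    convert! (Perm.sign_subtypePerm σ hinv fun x hx => hS (Perm.mem_support.2 hx)).trans hσ
  have hof : Perm.ofSubtype σ' = σ :=
    Perm.ofSubtype_subtypePerm _ fun x hx => hS (Perm.mem_support.2 hx)
  rw [← hof]
  rw [← closure_three_cycles_eq_alternating] at hσ'
  have h := Subgroup.mem_map_of_mem Perm.ofSubtype hσ'
  rw [MonoidHom.map_closure] at h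
  refine Subgroup.closure_mono ?_ h
  rintro _ ⟨τ, hτ, rfl⟩
  refine ⟨?_, fun x hx => ?_⟩
  · show (Perm.ofSubtype τ).cycleType = {3}
    rw [Perm.cycleType_ofSubtype]
    exact hτ
  · by_contra hxS
    exact Perm.mem_support.1 hx (Perm.ofSubtype_apply_of_not_mem τ hxS)

end Perm

end Cfsg.Agent.H63.AltSec
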