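import Cfsg.Agent.H63.AltSec.Setup

/-!
# The canonical lift of a three-cycle
-/

set_option linter.unusedSectionVars false

namespace Cfsg.Agent.H63.AltSec

open Module Equiv

namespace AltProj

variable {k : Type*} [Field k] {V : Type*} [AddCommGroup V] [Module k V] {r : ℕ} (P : AltProj k V r)

/-- An element centralising a three-cycle modulo scalars centralises all its lifts. -/
theorem commute_of_commute_threeCycle {g u : ↥P.G} (hg : (P.πP g).IsThreeCycle)
    (h : Commute (P.πP u) (P.πP g)) : Commute u g := by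
  obtain ⟨a, b, c, hab, hac, hbc, e⟩ := exists_cyc_eq hg
  have hperm : ∀ w, P.πP u (P.πP g w) = P.πP g (P.πP u w) := fun w =>
    DFunLike.congr_fun h.eq w
  have hfix : ∀ u' : ↥P.G, Commute (P.πP u') (P.πP g) → P.πP u' a = a → Commute u' g := by
    intro u' h' ha
    refine P.commute_of_disjoint ?_
    have hw : ∀ w, P.πP u' (P.πP g w) = P.πP g (P.πP u' w) := fun w => DFunLike.congr_fun h'.eq w
    have hb : P.πP u' b = b := by
      have := hw a
      rwa [ha, e, cyc_apply_fst hab hac] at this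
    have hc : P.πP u' c = c := by
      have := hw b
      rwa [hb, e, cyc_apply_snd hac hbc] at this
    rw [Finset.disjoint_right, e, support_cyc hab hac hbc]
    intro w hw'
    simp only [Finset.mem_insert, Finset.mem_singleton] at hw'
    rcases hw' with rfl | rfl | rfl <;> simp [ha, hb, hc]
  have hmem : P.πP u a = a ∨ P.πP u a = b ∨ P.πP u a = c := by
    by_contra hcon
    simp only [not_or] at hcon
    have h1 := hperm a
    rw [e, cyc_apply_fst hab hac, cyc_apply_of_ne hcon.1 hcon.2.1 hcon.2.2] at h1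
    exact hab ((P.πP u).injective h1).symm
  rcases hmem with ha | ha | ha
  · exact hfix u h ha
  · have hu' := hfix (g⁻¹ * u) (by
      rw [map_mul, map_inv]; exact (Commute.refl _).inv_left.mul_left h) (by
      rw [map_mul, map_inv, Perm.mul_apply, ha, e, cyc_inv, cyc_apply_snd hac.symm hab.symm])
    have := (Commute.refl g).mul_left hu'
    rwa [mul_inv_cancel_left] at this
  · have hu' := hfix (g * u) (by
      rw [map_mul]; exact (Commute.refl _).mul_left h) (by
      rw [map_mul, Perm.mul_apply, ha, e, cyc_apply_thd])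
    have := ((Commute.refl g).inv_left).mul_left hu'
    rwa [inv_mul_cancel_left] at this

/-- A normalised lift of a three-cycle. -/
def IsT (g : ↥P.G) : Prop :=
  (P.πP g).IsThreeCycle ∧ g ^ 3 = 1 ∧ ∃ t : ↥P.G, t * g * t⁻¹ = g ^ 2

theorem IsT.conj {g : ↥P.G} (h : P.IsT g) (u : ↥P.G) : P.IsT (u * g * u⁻¹) := by
  obtain ⟨h1, h2, t, ht⟩ := h
  refine ⟨?_, by rw [conj_pow, h2, mul_one, mul_inv_cancel], u * t * u⁻¹, ?_⟩
  · rw [map_mul, map_mul, map_inv]
    show (P.πP u * P.πP g * (P.πP u)⁻¹).cycleType = {3}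
    rw [Perm.cycleType_conj]
    exact h1
  · rw [conj_pow, ← ht]; group

theorem IsT.inv {g : ↥P.G} (h : P.IsT g) : P.IsT g⁻¹ := by
  obtain ⟨h1, h2, t, ht⟩ := h
  refine ⟨by rw [map_inv]; exact h1.inv, by rw [inv_pow, h2, inv_one], t, ?_⟩
  rw [← conj_inv, ht, inv_pow]

theorem IsT.eq {g g' : ↥P.G} (h : P.IsT g) (h' : P.IsT g') (e : P.πP g' = P.πP g) : g' = g := by
  obtain ⟨h1, h2, t, ht⟩ := h
  obtain ⟨-, h2', t', ht'⟩ := h'
  obtain ⟨l, rfl⟩ := P.exists_sc_mul e
  have hcomm : Commute (t⁻¹ * t') g := by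
    refine P.commute_of_commute_threeCycle h1 ?_
    have a1 : P.πP (t * g * t⁻¹) = P.πP g ^ 2 := by rw [ht, map_pow]
    have a2 : P.πP (t' * (P.sc l * g) * t'⁻¹) = P.πP g ^ 2 := by rw [ht', map_pow, e]
    rw [map_mul, map_mul, map_inv, e] at a2
    rw [map_mul, map_mul, map_inv, ← a2] at a1
    rw [map_mul, map_inv]
    show _ * _ = _ * _
    clear a2
    calc (P.πP t)⁻¹ * P.πP t' * P.πP g
        = (P.πP t)⁻¹ * (P.πP t' * P.πP g * (P.πP t')⁻¹) * P.πP t' := by group
      _ = P.πP g * ((P.πP t)⁻¹ * P.πP t') := by rw [← a1]; group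
  have hg2 : t' * g * t'⁻¹ = g ^ 2 := by
    calc t' * g * t'⁻¹ = t * ((t⁻¹ * t') * g * (t⁻¹ * t')⁻¹) * t⁻¹ := by group
      _ = g ^ 2 := by rw [hcomm.eq, mul_inv_cancel_right, ht]
  rw [← mul_assoc t', ← P.sc_comm l t', mul_assoc (P.sc l), mul_assoc (P.sc l), hg2,
    Commute.mul_pow (P.sc_comm l g) 2, pow_two (P.sc l), mul_assoc] at ht'
  have hl : P.sc l = 1 := by
    have e1 := mul_left_cancel ht'
    nth_rewrite 1 [← one_mul (g ^ 2)] at e1
    exact (mul_right_cancel e1).symm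
  rw [hl, one_mul]

theorem exists_isT {a b c : Fin r} (hab : a ≠ b) (hac : a ≠ c) (hbc : b ≠ c) :
    ∃ g, P.πP g = cyc a b c ∧ P.IsT g := by
  have hr := P.nine_le
  obtain ⟨γ, hγ⟩ := exists_even_map (α := Fin r) (m := 3) (by simp; omega) ![a, b, c] ![c, b, a]
    (by intro i j; fin_cases i <;> fin_cases j <;> simp <;> grind)
    (by intro i j; fin_cases i <;> fin_cases j <;> simp <;> grind)
  have e3 := cyc_pow_three hab hac hbc
  obtain ⟨g, hg, hn⟩ := P.exists_normLift (sign_cyc hab hac hbc) (Perm.mem_alternatingGroup.1 γ.2)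
    (by
      rw [conj_cyc, show γ.1 a = c from hγ 0, show γ.1 b = b from hγ 1, show γ.1 c = a from hγ 2,
        ← cyc_inv, inv_eq_sq_of_pow_three e3])
  obtain ⟨t, ht⟩ := P.exists_lift (Perm.mem_alternatingGroup.1 γ.2)
  exact ⟨g, hg, hg ▸ isThreeCycle_cyc hab hac hbc,
    pow_eq_one_of_normLift P (hn t ht) (by rw [hg, e3]), t, hn t ht⟩

open Classical in
/-- The normalised lift of `a → b → c → a`. -/
noncomputable def tri (a b c : Fin r) : ↥P.G :=
  if h : a ≠ b ∧ a ≠ c ∧ b ≠ c then (P.exists_isT h.1 h.2.1 h.2.2).choose else 1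

variable {a b c : Fin r} (hab : a ≠ b) (hac : a ≠ c) (hbc : b ≠ c)

include hab hac hbc in
theorem tri_spec : P.πP (P.tri a b c) = cyc a b c ∧ P.IsT (P.tri a b c) := by
  rw [tri, dif_pos ⟨hab, hac, hbc⟩]
  exact (P.exists_isT hab hac hbc).choose_spec

include hab hac hbc in
theorem πP_tri : P.πP (P.tri a b c) = cyc a b c := (P.tri_spec hab hac hbc).1

include hab hac hbc in
theorem tri_pow_three : P.tri a b c ^ 3 = 1 := (P.tri_spec hab hac hbc).2.2.1

include hab hac hbc in
theorem tri_conj (u : ↥P.G) :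
    u * P.tri a b c * u⁻¹ = P.tri (P.πP u a) (P.πP u b) (P.πP u c) := by
  have h1 : P.πP u a ≠ P.πP u b := fun e => hab ((P.πP u).injective e)
  have h2 : P.πP u a ≠ P.πP u c := fun e => hac ((P.πP u).injective e)
  have h3 : P.πP u b ≠ P.πP u c := fun e => hbc ((P.πP u).injective e)
  refine (P.tri_spec h1 h2 h3).2.eq P ((P.tri_spec hab hac hbc).2.conj P u) ?_
  rw [map_mul, map_mul, map_inv, P.πP_tri hab hac hbc, P.πP_tri h1 h2 h3, conj_cyc]

include hab hac hbc in
theorem tri_rotate : P.tri b c a = P.tri a b c :=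
  (P.tri_spec hab hac hbc).2.eq P (P.tri_spec hbc hab.symm hac.symm).2
    (by rw [P.πP_tri hbc hab.symm hac.symm, P.πP_tri hab hac hbc, cyc_rotate hab hac hbc])

include hab hac hbc in
theorem tri_reverse : P.tri c b a = (P.tri a b c)⁻¹ :=
  ((P.tri_spec hab hac hbc).2.inv P).eq P (P.tri_spec hbc.symm hac.symm hab.symm).2
    (by rw [map_inv, P.πP_tri hbc.symm hac.symm hab.symm, P.πP_tri hab hac hbc, cyc_inv])

include hab hac hbc in
theorem tri_commute {d e f : Fin r} (hde : d ≠ e) (hdf : d ≠ f) (hef : e ≠ f)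
    (hd : _root_.Disjoint ({a, b, c} : Finset (Fin r)) {d, e, f}) :
    Commute (P.tri a b c) (P.tri d e f) := by
  refine P.commute_of_disjoint ?_
  rwa [P.πP_tri hab hac hbc, P.πP_tri hde hdf hef, support_cyc hab hac hbc, support_cyc hde hdf hef]

end AltProj

end Cfsg.Agent.H63.AltSec
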